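import Mathlib
import Cfsg.Agent.Lib.Helper41.SnB.Q8Defs
import Cfsg.Agent.Lib.Helper47.Subn

/-!
# S2986, package [Q8-SYL]

Existence of `S₀` (a Sylow `2`-subgroup of the preimage `R` of `O_2(G / O_p(G))`), and
conjugation of `2`-subgroups of `R` into `S₀` by elements of `O_p(G)`.
-/

set_option autoImplicit false

namespace Cfsg.Agent.Lib.Helper80.SnB

open Cfsg
open Cfsg.Agent.Lib.Helper41.SnB

open scoped Pointwise

universe u

/-- `P ⊴ G`, `R ⊴ G` with `R / (R ∩ P)` a `2`-group: there is a `2`-subgroup `S₀ ≤ R` such that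
every `2`-subgroup of `R` is conjugate into `S₀` by an element of `P`. -/
theorem syl_core {G : Type u} [Group G] [Finite G] (P R : Subgroup G) [hP : P.Normal]
    (h2 : ∀ r ∈ R, ∃ m : ℕ, r ^ (2 ^ m) ∈ P) :
    ∃ S₀ : Subgroup G, IsPGroup 2 ↥S₀ ∧ S₀ ≤ R ∧
      ∀ K : Subgroup G, K ≤ R → IsPGroup 2 ↥K → ∃ c ∈ P, ∀ k ∈ K, c * k * c⁻¹ ∈ S₀ := by
  classical
  have : Fact (Nat.Prime 2) := ⟨Nat.prime_two⟩
  obtain ⟨S'⟩ : Nonempty (Sylow 2 ↥R) := inferInstance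
  let P' : Subgroup ↥R := P.subgroupOf R
  have hP' : P'.Normal := inferInstance
  have hquot : IsPGroup 2 (↥R ⧸ P') := by
    intro q
    obtain ⟨r, rfl⟩ := QuotientGroup.mk_surjective q
    obtain ⟨m, hm⟩ := h2 r.1 r.2
    refine ⟨m, ?_⟩
    rw [← QuotientGroup.mk_pow, QuotientGroup.eq_one_iff]
    show (r ^ (2 ^ m) : ↥R) ∈ P.subgroupOf R
    rw [Subgroup.mem_subgroupOf]
    simpa using hm
  have htop : (S' : Subgroup ↥R) ⊔ P' = ⊤ := by
    rw [← Subgroup.index_eq_one]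
    have d1 : ((S' : Subgroup ↥R) ⊔ P').index ∣ (S' : Subgroup ↥R).index :=
      Subgroup.index_dvd_of_le le_sup_left
    have d2 : ((S' : Subgroup ↥R) ⊔ P').index ∣ P'.index :=
      Subgroup.index_dvd_of_le le_sup_right
    obtain ⟨n, hn⟩ := IsPGroup.exists_card_eq hquot
    have d3 : P'.index = 2 ^ n := by rw [← hn]; rfl
    rw [d3] at d2
    obtain ⟨j, -, hj⟩ := (Nat.dvd_prime_pow Nat.prime_two).mp d2
    have hnd : ¬ 2 ∣ (S' : Subgroup ↥R).index := S'.not_dvd_index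
    rcases j with _ | j
    · rw [hj, pow_zero]
    · exfalso
      apply hnd
      refine Dvd.dvd.trans ?_ d1
      rw [hj, pow_succ]
      exact Dvd.intro_left _ rfl
  have hdec : ∀ r : ↥R, ∃ s ∈ (S' : Subgroup ↥R), ∃ c ∈ P', r = s * c := by
    intro r
    have hr : r ∈ (S' : Subgroup ↥R) ⊔ P' := by rw [htop]; trivial
    have hr' : r ∈ ((S' : Subgroup ↥R) : Set ↥R) * (P' : Set ↥R) := by
      rw [← Subgroup.mul_normal]; exact hr
    obtain ⟨s, hs, c, hc, rfl⟩ := Set.mem_mul.mp hr'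
    exact ⟨s, hs, c, hc, rfl⟩
  refine ⟨(S' : Subgroup ↥R).map R.subtype, S'.isPGroup'.map _, Subgroup.map_subtype_le _, ?_⟩
  intro K hKR hK
  have hK' : IsPGroup 2 ↥(K.subgroupOf R) := hK.comap_subtype
  obtain ⟨Q, hQ⟩ := hK'.exists_le_sylow
  obtain ⟨r, hr⟩ := MulAction.exists_smul_eq ↥R Q S'
  obtain ⟨s, hs, c, hc, rfl⟩ := hdec r
  refine ⟨(c : G), Subgroup.mem_subgroupOf.mp hc, ?_⟩
  intro k hk
  have hkQ : (⟨k, hKR hk⟩ : ↥R) ∈ (Q : Subgroup ↥R) := hQ (Subgroup.mem_subgroupOf.mpr hk)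
  have h1 : s * (c * ⟨k, hKR hk⟩ * c⁻¹) * s⁻¹ ∈ (S' : Subgroup ↥R) := by
    have h0 := Subgroup.smul_mem_pointwise_smul _ (MulAut.conj (s * c)) _ hkQ
    rw [← Sylow.coe_subgroup_smul, hr] at h0
    simpa [MulAut.smul_def] using h0
  have h3 : c * ⟨k, hKR hk⟩ * c⁻¹ ∈ (S' : Subgroup ↥R) := by
    have e : c * ⟨k, hKR hk⟩ * c⁻¹ = s⁻¹ * (s * (c * ⟨k, hKR hk⟩ * c⁻¹) * s⁻¹) * s := by group
    rw [e]
    exact Subgroup.mul_mem _ (Subgroup.mul_mem _ (Subgroup.inv_mem _ hs) h1) hs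
  exact ⟨_, h3, rfl⟩

/-- [Q8-SYL] -/
theorem pkgSyl : PkgSyl.{u} := by
  intro G _ _ p _ _
  have hPn : (pCore p G).Normal := Subgroup.sSup_normal _ (fun _ h => h.1)
  have hOn : (pCore 2 (G ⧸ pCore p G)).Normal := Subgroup.sSup_normal _ (fun _ h => h.1)
  let π : G →* G ⧸ pCore p G := QuotientGroup.mk' (pCore p G)
  let R : Subgroup G := (pCore 2 (G ⧸ pCore p G)).comap π
  have hRn : R.Normal := hOn.comap π
  have : Fact (Nat.Prime 2) := ⟨Nat.prime_two⟩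
  have h2R : ∀ r ∈ R, ∃ m : ℕ, r ^ (2 ^ m) ∈ pCore p G := by
    intro r hr
    obtain ⟨m, hm⟩ := Cfsg.Agent.Lib.Helper47.pCore_isPGroup 2 (G ⧸ pCore p G) ⟨π r, hr⟩
    refine ⟨m, ?_⟩
    have h : (π r) ^ (2 ^ m) = 1 := by simpa [Subtype.ext_iff] using hm
    rw [← map_pow] at h
    exact (QuotientGroup.eq_one_iff _).mp h
  obtain ⟨S₀, hS2, hSR, hpos⟩ := syl_core (pCore p G) R h2R
  refine ⟨S₀, ⟨hS2, ?_⟩, ?_⟩
  · intro g s hs
    let K : Subgroup G := S₀.map (MulAut.conj g).toMonoidHom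
    have hK2 : IsPGroup 2 ↥K := hS2.map _
    have hKR : K ≤ R := by
      rintro _ ⟨t, ht, rfl⟩
      show g * t * g⁻¹ ∈ R
      exact hRn.conj_mem t (hSR ht) g
    obtain ⟨c, hc, hcK⟩ := hpos K hKR hK2
    have hk : g * s * g⁻¹ ∈ K := ⟨s, hs, rfl⟩
    have hs' := hcK _ hk
    refine ⟨c⁻¹ * ((c * (g * s * g⁻¹) * c⁻¹) * c * (c * (g * s * g⁻¹) * c⁻¹)⁻¹), ?_,
      c * (g * s * g⁻¹) * c⁻¹, hs', by group⟩
    exact Subgroup.mul_mem _ (Subgroup.inv_mem _ hc) (hPn.conj_mem c hc _)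
  · intro X K hsub hX hKX hK
    have hπ : Function.Surjective π := QuotientGroup.mk'_surjective _
    have hsn : (X.map π).IsSubnormal := hsub.map hπ
    have hp2' : IsPGroup 2 ↥(X.map π) := by
      rintro ⟨_, x, hx, rfl⟩
      obtain ⟨m, hm⟩ := hX x hx
      refine ⟨m, ?_⟩
      apply Subtype.ext
      simp only [Subgroup.coe_pow, Subgroup.coe_one]
      rw [← map_pow]
      exact (QuotientGroup.eq_one_iff _).mpr hm
    have h1 : X.map π ≤ pCore 2 (G ⧸ pCore p G) :=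
      Cfsg.Agent.Lib.Helper47.le_pCore_of_isSubnormal_of_isPGroup hsn hp2'
    have hXR : X ≤ R := fun x hx => h1 (Subgroup.mem_map_of_mem _ hx)
    exact hpos K (hKX.trans hXR) hK

end Cfsg.Agent.Lib.Helper80.SnB
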